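import Mathlib.FieldTheory.Finite.Extension
import Mathlib.RingTheory.Norm.Basic
import Mathlib.LinearAlgebra.Matrix.GeneralLinearGroup.Defs
import Cfsg.Agent.H934.PQR.TorGen

/-!
# S4842: `GL₂(F)` from `SL₂(F)` and a cocharacter (helper120)

* `GLi Ψ ω hω : GL₂(F) →* Y` for `Ψ : SL₂(F) →* Y`, `ω : Fˣ →* Y` with `ω d * Ψ B * (ω d)⁻¹ = Ψ (cd d B)`,
  `cd d B = diag (d, 1) B diag (d, 1)⁻¹`;
* `exists_elt` : `g ∈ GL₂(F)` of order `q² - 1` with `det g = N` of order `q - 1` and `g ^ (q + 1) = N • 1`.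
-/

set_option autoImplicit false

namespace Cfsg.Agent.H120.OZ

open Matrix
open Cfsg.Agent.ChevalleyStructure.SL2Hom (up lo)
open Cfsg.Agent.H934.PQR.TorGen (tau)

universe u v

section Lin

variable {F : Type u} [Field F] {Y : Type v} [Group Y]

/-- conjugation by `diag (d, 1)` -/
def cd (d : Fˣ) (B : SpecialLinearGroup (Fin 2) F) : SpecialLinearGroup (Fin 2) F :=
  ⟨!![B.1 0 0, d * B.1 0 1; (d : F)⁻¹ * B.1 1 0, B.1 1 1], by
    have h := B.2
    rw [det_fin_two] at h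
    rw [det_fin_two_of]
    have hd : (d : F) ≠ 0 := d.ne_zero
    field_simp
    linear_combination h⟩

theorem coe_cd (d : Fˣ) (B : SpecialLinearGroup (Fin 2) F) :
    (cd d B).1 = !![B.1 0 0, d * B.1 0 1; (d : F)⁻¹ * B.1 1 0, B.1 1 1] := rfl

theorem cd_mul (d : Fˣ) (B C : SpecialLinearGroup (Fin 2) F) : cd d (B * C) = cd d B * cd d C := by
  apply Subtype.ext
  have hd : (d : F) ≠ 0 := d.ne_zero
  show (cd d (B * C)).1 = (cd d B).1 * (cd d C).1
  rw [coe_cd, coe_cd, coe_cd]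
  have e : ∀ i j, (B * C).1 i j = B.1 i 0 * C.1 0 j + B.1 i 1 * C.1 1 j := by
    intro i j
    show (B.1 * C.1) i j = _
    rw [Matrix.mul_apply, Fin.sum_univ_two]
  rw [e, e, e, e]
  ext i j
  fin_cases i <;> fin_cases j <;> simp [Matrix.mul_apply, Fin.sum_univ_two] <;> field_simp

theorem cd_up (d : Fˣ) (s : F) : cd d (up s) = up (d * s) := by
  apply Subtype.ext
  rw [coe_cd]
  simp [up]

theorem cd_lo (d : Fˣ) (s : F) : cd d (lo s) = lo ((d : F)⁻¹ * s) := by
  apply Subtype.ext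
  rw [coe_cd]
  simp [lo]

/-- the compatibility on the generators is enough -/
theorem conj_of_gens {Ψ : SpecialLinearGroup (Fin 2) F →* Y} {x : Y} {d : Fˣ}
    (hu : ∀ s, x * Ψ (up s) * x⁻¹ = Ψ (up (d * s))) (hl : ∀ s, x * Ψ (lo s) * x⁻¹ = Ψ (lo ((d : F)⁻¹ * s)))
    (B : SpecialLinearGroup (Fin 2) F) : x * Ψ B * x⁻¹ = Ψ (cd d B) := by
  have h1 := Cfsg.Agent.ChevalleyStructure.SL2Hom.mem_closure_SL2 B
  have hone : cd d (1 : SpecialLinearGroup (Fin 2) F) = 1 := by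
    apply Subtype.ext
    rw [coe_cd]
    ext i j
    fin_cases i <;> fin_cases j <;> simp
  induction h1 using Subgroup.closure_induction with
  | mem B hB =>
    rcases hB with ⟨s, rfl⟩ | ⟨s, rfl⟩
    · rw [hu, cd_up]
    · rw [hl, cd_lo]
  | one => rw [hone, map_one, mul_one, mul_inv_cancel]
  | mul B C _ _ hB hC =>
    rw [map_mul, cd_mul, map_mul, ← hB, ← hC]
    group
  | inv B _ hB =>
    have h2 : cd d B⁻¹ = (cd d B)⁻¹ := by
      rw [eq_inv_iff_mul_eq_one, ← cd_mul, inv_mul_cancel, hone]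
    rw [h2, map_inv, map_inv, ← hB]
    group

/-- `g diag (det g, 1)⁻¹` -/
def sl (g : GL (Fin 2) F) : SpecialLinearGroup (Fin 2) F :=
  ⟨!![g.1 0 0 * (g.1.det)⁻¹, g.1 0 1; g.1 1 0 * (g.1.det)⁻¹, g.1 1 1], by
    have hd : g.1.det ≠ 0 := (GeneralLinearGroup.det g).ne_zero
    rw [det_fin_two_of]
    have h2 : g.1.det = g.1 0 0 * g.1 1 1 - g.1 0 1 * g.1 1 0 := det_fin_two _
    field_simp
    rw [h2]⟩

theorem coe_sl (g : GL (Fin 2) F) :
    (sl g).1 = !![g.1 0 0 * (g.1.det)⁻¹, g.1 0 1; g.1 1 0 * (g.1.det)⁻¹, g.1 1 1] := rfl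

theorem coe_det (g : GL (Fin 2) F) : ((GeneralLinearGroup.det g : Fˣ) : F) = g.1.det := rfl

theorem sl_mul (g k : GL (Fin 2) F) : sl (g * k) = sl g * cd (GeneralLinearGroup.det g) (sl k) := by
  apply Subtype.ext
  have hd : g.1.det ≠ 0 := (GeneralLinearGroup.det g).ne_zero
  have hk : k.1.det ≠ 0 := (GeneralLinearGroup.det k).ne_zero
  show (sl (g * k)).1 = (sl g).1 * (cd (GeneralLinearGroup.det g) (sl k)).1
  rw [coe_sl, coe_sl, coe_cd, coe_sl, coe_det]
  have e : ∀ i j, (g * k).1 i j = g.1 i 0 * k.1 0 j + g.1 i 1 * k.1 1 j := by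
    intro i j
    show (g.1 * k.1) i j = _
    rw [Matrix.mul_apply, Fin.sum_univ_two]
  have e2 : (g * k).1.det = g.1.det * k.1.det := Matrix.det_mul _ _
  rw [e, e, e, e, e2]
  ext i j
  fin_cases i <;> fin_cases j <;> simp [Matrix.mul_apply, Fin.sum_univ_two] <;> field_simp

/-- **`GL₂(F) → Y`** -/
def GLi (Ψ : SpecialLinearGroup (Fin 2) F →* Y) (ω : Fˣ →* Y)
    (hω : ∀ d B, ω d * Ψ B * (ω d)⁻¹ = Ψ (cd d B)) : GL (Fin 2) F →* Y where
  toFun g := Ψ (sl g) * ω (GeneralLinearGroup.det g)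
  map_one' := by
    have : sl (1 : GL (Fin 2) F) = 1 := by
      apply Subtype.ext
      rw [coe_sl]
      ext i j
      fin_cases i <;> fin_cases j <;> simp
    rw [this, map_one, map_one, map_one, mul_one]
  map_mul' g k := by
    rw [sl_mul, map_mul, map_mul, map_mul, ← hω]
    group

theorem GLi_apply (Ψ : SpecialLinearGroup (Fin 2) F →* Y) (ω : Fˣ →* Y)
    (hω : ∀ d B, ω d * Ψ B * (ω d)⁻¹ = Ψ (cd d B)) (g : GL (Fin 2) F) :
    GLi Ψ ω hω g = Ψ (sl g) * ω (GeneralLinearGroup.det g) := rfl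

theorem sl_scalar {g : GL (Fin 2) F} {c : Fˣ} (hg : g.1 = (c : F) • (1 : Matrix (Fin 2) (Fin 2) F)) :
    sl g = tau c⁻¹ ∧ GeneralLinearGroup.det g = c ^ 2 := by
  have hc : (c : F) ≠ 0 := c.ne_zero
  have hd : g.1.det = (c : F) ^ 2 := by
    rw [hg, det_smul, det_one, mul_one, Fintype.card_fin]
  constructor
  · apply Subtype.ext
    rw [coe_sl, hd, hg]
    change _ = !![((c⁻¹ : Fˣ) : F), 0; 0, ((c⁻¹⁻¹ : Fˣ) : F)]
    ext i j
    fin_cases i <;> fin_cases j <;> simp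
    field_simp
  · apply Units.ext
    rw [coe_det, hd, Units.val_pow_eq_pow_val]

theorem GLi_scalar (Ψ : SpecialLinearGroup (Fin 2) F →* Y) (ω : Fˣ →* Y)
    (hω : ∀ d B, ω d * Ψ B * (ω d)⁻¹ = Ψ (cd d B)) {g : GL (Fin 2) F} {c : Fˣ}
    (hg : g.1 = (c : F) • (1 : Matrix (Fin 2) (Fin 2) F)) : GLi Ψ ω hω g = Ψ (tau c⁻¹) * ω (c ^ 2) := by
  rw [GLi_apply, (sl_scalar hg).1, (sl_scalar hg).2]

end Lin

section Elt

variable (F : Type u) [Field F] [Fintype F]

/-- **Singer elements of `GL₂(F)`** -/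
theorem exists_elt : ∃ (g : GL (Fin 2) F) (N : Fˣ), orderOf g = Fintype.card F ^ 2 - 1 ∧
    orderOf N = Fintype.card F - 1 ∧ GeneralLinearGroup.det g = N ∧
    (g ^ (Fintype.card F + 1)).1 = (N : F) • (1 : Matrix (Fin 2) (Fin 2) F) := by
  classical
  obtain ⟨p, hp⟩ := CharP.exists F
  have : Fact p.Prime := ⟨CharP.char_is_prime F p⟩
  let K := FiniteField.Extension F p 2
  have hKcard : Nat.card K = Fintype.card F ^ 2 := by
    rw [FiniteField.natCard_extension F p 2, Nat.card_eq_fintype_card]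
  have hfin : Module.finrank F K = 2 := FiniteField.finrank_extension F p 2
  let b := Module.finBasisOfFinrankEq F K hfin
  obtain ⟨y, hy⟩ := IsCyclic.exists_generator (α := Kˣ)
  have hordy : orderOf y = Fintype.card F ^ 2 - 1 := by
    rw [orderOf_eq_card_of_forall_mem_zpowers hy, Nat.card_units, hKcard]
  have hq : 1 < Fintype.card F := Fintype.one_lt_card
  set φ : Kˣ →* GL (Fin 2) F := Units.map (Algebra.leftMulMatrix b).toRingHom.toMonoidHom with hφ
  have hφi : Function.Injective φ := Units.map_injective (Algebra.leftMulMatrix_injective b)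
  have hcoe : ∀ z : Kˣ, (φ z).1 = Algebra.leftMulMatrix b (z : K) := fun z => rfl
  have hnorm : algebraMap F K (Algebra.norm F (y : K)) = (y : K) ^ (Fintype.card F + 1) := by
    have h1 := FiniteField.algebraMap_norm_eq_pow (K := F) (K' := K) (x := (y : K))
    rw [h1]
    congr 1
    rw [hKcard, Nat.card_eq_fintype_card]
    obtain ⟨c, hc⟩ : ∃ c, Fintype.card F = c + 1 := ⟨Fintype.card F - 1, by omega⟩
    have h3 : (c + 1) ^ 2 = (c + 1 + 1) * c + 1 := by ring
    have hc0 : 0 < c := by omega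
    rw [hc, Nat.add_sub_cancel, h3, Nat.add_sub_cancel, Nat.mul_div_cancel _ hc0]
  set N : Fˣ := GeneralLinearGroup.det (φ y) with hN
  have hNn : (N : F) = Algebra.norm F (y : K) := by
    rw [hN, coe_det, hcoe, Algebra.norm_eq_matrix_det b]
  refine ⟨φ y, N, ?_, ?_, rfl, ?_⟩
  · rw [orderOf_injective _ hφi y, hordy]
  · -- the order of the norm
    have h1 : Units.map (algebraMap F K).toMonoidHom N = y ^ (Fintype.card F + 1) := by
      apply Units.ext
      rw [Units.val_pow_eq_pow_val, ← hnorm, ← hNn]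
      rfl
    have h2 : orderOf N = orderOf (y ^ (Fintype.card F + 1)) := by
      rw [← h1]
      exact (orderOf_injective _ (Units.map_injective (algebraMap F K).injective) N).symm
    have h3 : Fintype.card F ^ 2 - 1 = (Fintype.card F + 1) * (Fintype.card F - 1) := by
      obtain ⟨c, hc⟩ : ∃ c, Fintype.card F = c + 1 := ⟨Fintype.card F - 1, by omega⟩
      rw [hc, Nat.add_sub_cancel]
      have : (c + 1) ^ 2 = (c + 1 + 1) * c + 1 := by ring
      omega
    rw [h2, orderOf_pow_of_dvd (by omega) (by rw [hordy, h3]; exact dvd_mul_right _ _), hordy, h3,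
      Nat.mul_div_cancel_left _ (by omega)]
  · rw [← map_pow, hcoe, Units.val_pow_eq_pow_val, ← hnorm, ← hNn, AlgHom.commutes]
    rw [Algebra.algebraMap_eq_smul_one]

end Elt

end Cfsg.Agent.H120.OZ
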